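import Cfsg.Agent.Fod.Det
import Cfsg.Agent.Fo.A
import Cfsg.Agent.Fo.B
import Cfsg.Agent.Bz.A
import Cfsg.Agent.R2c.Herz
import Cfsg.Agent.S4477

/-!
# Four characters of odd degree in the principal 2-block: the determinant side
-/

set_option autoImplicit false
open Cfsg CF.Char CF.BlockB
open scoped ComplexConjugate

namespace CF.K4

/-- Three commuting involutions without fixed points: half the cardinality is even. -/
theorem even_half {Y : Type*} [Finite Y] (a c : Y → Y) (ha : ∀ y, a (a y) = y)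
    (hc : ∀ y, c (c y) = y) (hac : ∀ y, a (c y) = c (a y)) (h1 : ∀ y, a y ≠ y)
    (h2 : ∀ y, c y ≠ y) (h3 : ∀ y, a (c y) ≠ y) : Even (Nat.card Y / 2) := by
  classical
  have := Fintype.ofFinite Y
  have key : ∀ σ : Equiv.Perm Y, (∀ y, σ (σ y) = y) → (∀ y, σ y ≠ y) →
      Equiv.Perm.sign σ = (-1) ^ (Nat.card Y / 2) := fun σ e f => by
    rw [Equiv.Perm.sign_of_pow_two_eq_one (Equiv.ext fun y => by rw [pow_two]; exact e y),
      (Fintype.card_eq_zero_iff (α := Function.fixedPoints σ)).2 ⟨fun y => f y.1 y.2⟩,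
      Nat.sub_zero, Nat.card_eq_fintype_card]
  let A : Equiv.Perm Y := Function.Involutive.toPerm a ha
  let C : Equiv.Perm Y := Function.Involutive.toPerm c hc
  have e1 := key A ha h1
  have e2 := key C hc h2
  have e3 := key (A * C) (fun y => by
    change a (c (a (c y))) = y
    rw [hac (a (c y)), ha, hc]) h3
  rw [map_mul, e1, e2, ← pow_add, Even.neg_one_pow ⟨_, rfl⟩] at e3
  by_contra h
  rw [(Nat.not_even_iff_odd.1 h).neg_one_pow] at e3
  exact absurd e3 (by decide)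

variable {G : Type*} [Group G] [Finite G] {M : Ideal AlgInt}

/-- The automorphism is an odd permutation of the characters of odd degree. -/
theorem odd_moved (s : ℂ →+* ℂ) (hI : s Complex.I = -Complex.I)
    (hs : ∀ (m : ℕ) (z : ℂ), Odd m → m ∣ Nat.card G → z ^ m = 1 → s z = z)
    (hinv : ∀ χ : IrrCharacter G, ∀ g, s (s ((χ : G → ℂ) g)) = (χ : G → ℂ) g)
    (h4 : Nat.card {χ : IrrCharacter G // ¬ 2 ∣ charDegree (χ : G → ℂ)} % 8 = 4)
    (h8 : 8 ∣ Nat.card G) (h2 : 4 ∣ Nat.card {x : G // x * x = 1}) :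
    ¬ Even (Nat.card {χ : IrrCharacter G // Odd (charDegree (χ : G → ℂ)) ∧
      (fun g => s ((χ : G → ℂ) g)) ≠ χ} / 2) := by
  classical
  have := Fintype.ofFinite G
  intro hev
  have hn : Nat.card G ≠ 0 := (Nat.card_pos (α := G)).ne'
  obtain ⟨D, hD, hD2⟩ := CF.Fod.det_core' s hinv
  rw [hev.neg_one_pow, one_mul] at hD
  choose r hr hr2 using fun χ : IrrCharacter G => CF.Fo.B_root s hn hs (CF.Fo.A_deg_dvd χ)
  have e1 : Even ((Nat.card G - Nat.card {x : G // x * x = 1}) / 2) := by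
    obtain ⟨a, ha⟩ := h8
    obtain ⟨b, hb⟩ := h2
    rw [ha, hb, Nat.even_iff]
    omega
  have e2 : (∏ χ, r χ) ^ 2 = (-1) ^ (∑ χ : IrrCharacter G, charDegree (χ : G → ℂ) *
      (charDegree (χ : G → ℂ) - 1) / 2) * (-1) * ∏ χ : IrrCharacter G,
        (charDegree (χ : G → ℂ) : ℂ) ^ (charDegree (χ : G → ℂ) ^ 2) := by
    rw [← Finset.prod_pow, Finset.prod_congr rfl fun χ _ => hr2 χ, Finset.prod_mul_distrib,
      Finset.prod_mul_distrib, Finset.prod_pow_eq_pow_sum, Finset.prod_pow_eq_pow_sum,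
      (CF.Fo.C_k1 h4 h8).neg_one_pow]
  rw [e1.neg_one_pow, one_mul] at hD2
  obtain ⟨b, hb⟩ : ∃ b, Nat.card G = b * 2 := ⟨Nat.card G / 2, by omega⟩
  set ε : ℂ := (-1) ^ (∑ χ : IrrCharacter G, charDegree (χ : G → ℂ) *
      (charDegree (χ : G → ℂ) - 1) / 2)
  have e3 : ε * ε = 1 := by rw [← pow_add, Even.neg_one_pow ⟨_, rfl⟩]
  set N : ℂ := (Nat.card G : ℂ) ^ b with hN
  have e4 : (Nat.card G : ℂ) ^ Nat.card G = N ^ 2 := by rw [hN, ← pow_mul, ← hb]
  have e5 : (D * ∏ χ, r χ) ^ 2 = (Complex.I * N) ^ 2 := by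
    rw [mul_pow, e2, mul_pow, Complex.I_sq, ← e4]
    linear_combination (-ε) * hD2 - (Nat.card G : ℂ) ^ Nat.card G * e3
  have e6 : s (D * ∏ χ, r χ) = D * ∏ χ, r χ := by
    rw [map_mul, hD, map_prod, Finset.prod_congr rfl fun χ _ => hr χ]
  have e7 : s N = N := by rw [hN, map_pow, map_natCast]
  have e8 : Complex.I * N ≠ 0 := mul_ne_zero Complex.I_ne_zero (pow_ne_zero _ (by exact_mod_cast hn))
  rcases sq_eq_sq_iff_eq_or_eq_neg.1 e5 with h | h
  · rw [h, map_mul, hI, e7] at e6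
    exact e8 (by linear_combination (-1 / 2 : ℂ) * e6)
  · rw [h, map_neg, map_mul, hI, e7] at e6
    exact e8 (by linear_combination (1 / 2 : ℂ) * e6)

/-- The number of solutions of `x * x = 1`. -/
theorem four_dvd_sq (P : Sylow 2 G) (h4 : 4 ∣ Nat.card G) (hc : ¬ IsCyclic P)
    (hi : (commutator ↥P).index ≠ 4) : 4 ∣ Nat.card {x : G // x * x = 1} := by
  have h1 := CF.R2c.nsub_two_mod P (by simpa using h4)
  have h2 : CF.Fgs2.nsub P 2 % 4 ≠ 1 := fun h => by
    rcases Cfsg.Agent.S4477.result P.isPGroup' (by rwa [CF.R2c.card_invol_eq]) with h | h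
    · exact hc h
    · exact hi h
  have h3 := CF.Fgs2.nsub_modEq_one (G := G) (β := 1) Nat.prime_two (by omega)
  have h5 := CF.Fgs2.nsub_prime_mul (G := G) Nat.prime_two
  have h6 : Nat.card {x : G // x * x = 1} = {x : G | x ^ 2 = 1}.ncard := by
    rw [← Nat.card_coe_set_eq]
    exact Nat.card_congr (Equiv.subtypeEquivRight fun x => by simp [pow_two])
  rw [h6, ← h5]
  simp only [Nat.ModEq, pow_one] at h3
  omega

theorem coprime_of_invol {k : ℕ} (h : ∀ g : G, (g ^ k) ^ k = g) : k.Coprime (Nat.card G) := by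
  refine Nat.Coprime.symm (Nat.coprime_of_dvd fun q hq h1 h2 => ?_)
  have := Fact.mk hq
  obtain ⟨g, hg⟩ := exists_prime_orderOf_dvd_card' q h1
  have h3 : g ^ k = 1 := orderOf_dvd_iff_pow_eq_one.1 (hg ▸ h2)
  have h4 := h g
  rw [h3, one_pow] at h4
  rw [← h4, orderOf_one] at hg
  exact hq.one_lt.ne hg

omit [Finite G] in
theorem pow_eq_of_odd {k a : ℕ} (h : ∀ g : G, (g ^ k) ^ 2 ^ a = g ^ 2 ^ a) (g : G)
    (hg : ¬ 2 ∣ orderOf g) : g ^ k = g := by
  have h1 := h g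
  rw [← pow_mul, pow_eq_pow_iff_modEq] at h1
  have h2 : k * 2 ^ a ≡ 1 * 2 ^ a [MOD orderOf g] := by rwa [one_mul]
  have h3 := Nat.ModEq.cancel_right_of_coprime
    (Nat.Coprime.pow_right a ((Nat.prime_two.coprime_iff_not_dvd.2 hg).symm)) h2
  rw [pow_eq_pow_iff_modEq.2 h3, pow_one]

/-- If the automorphism fixes the characters of odd degree of the principal block, it is an even
permutation of all characters of odd degree. -/
theorem even_moved (hM : IsPModular 2 M) {k : ℕ} (hk : k.Coprime (Nat.card G))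
    (hkk : ∀ g : G, (g ^ k) ^ k = g) (hk₂ : ∀ g : G, ¬ 2 ∣ orderOf g → g ^ k = g)
    (h : ∀ χ ∈ principalBlock M G, ¬ 2 ∣ charDegree (χ : G → ℂ) → gal hk χ = χ) :
    Even (Nat.card {χ : IrrCharacter G // Odd (charDegree (χ : G → ℂ)) ∧ gal hk χ ≠ χ} / 2) := by
  let cj : IrrCharacter G → IrrCharacter G := fun χ => ⟨_, irr_conj χ.2⟩
  have c1 : ∀ χ g, (cj χ : G → ℂ) g = (χ : G → ℂ) g⁻¹ := fun χ g => (irr_inv χ.2 g).symm
  have c2 : ∀ χ, cj (cj χ) = χ := fun χ => Subtype.ext (funext fun g => by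
    rw [c1, c1, inv_inv])
  have c3 : ∀ χ, gal hk (gal hk χ) = χ := fun χ => Subtype.ext (funext fun g => by
    rw [gal_apply, gal_apply, hkk])
  have c4 : ∀ χ, gal hk (cj χ) = cj (gal hk χ) := fun χ => Subtype.ext (funext fun g => by
    rw [gal_apply, c1, c1, gal_apply, inv_pow])
  have c5 : ∀ χ, charDegree (cj χ : G → ℂ) = charDegree (χ : G → ℂ) := fun χ => by
    unfold charDegree
    rw [c1, inv_one]
  have c6 : ∀ χ : IrrCharacter G, Odd (charDegree (χ : G → ℂ)) →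
      (∀ g, ¬ 2 ∣ orderOf g → (χ : G → ℂ) g⁻¹ = (χ : G → ℂ) g) → gal hk χ = χ := fun χ ho hg => by
    have h2 := Nat.two_dvd_ne_zero.2 (Nat.odd_iff.1 ho)
    refine h χ (mem_pb_of_inv_stable hM h2 fun g hg' => ?_) h2
    rw [centralChar, centralChar, centralizer_inv, hg g hg', sub_self, map_zero]
    exact zero_lt_one
  refine even_half
    (fun y => ⟨gal hk y.1, by rw [charDegree_gal]; exact y.2.1, fun e => y.2.2 (by
      rw [c3] at e; exact e.symm)⟩)
    (fun y => ⟨cj y.1, by rw [c5]; exact y.2.1, fun e => y.2.2 (by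
      rw [c4] at e; rw [← c2 (gal hk y.1), e, c2])⟩)
    (fun y => Subtype.ext (c3 _)) (fun y => Subtype.ext (c2 _)) (fun y => Subtype.ext (c4 _))
    (fun y e => y.2.2 (congrArg Subtype.val e)) (fun y e => y.2.2 (c6 _ y.2.1 fun g _ => ?_))
    (fun y e => y.2.2 (c6 _ y.2.1 fun g hg => ?_))
  · have e' : cj y.1 = y.1 := congrArg Subtype.val e
    rw [← c1, e']
  · have e' : gal hk (cj y.1) = y.1 := congrArg Subtype.val e
    rw [← c1, ← hk₂ g hg, ← gal_apply hk, e', hk₂ g hg]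

/-- If the automorphism moves one of the four characters, there is a normal 2-complement. -/
theorem npc_of_moved (hM : IsPModular 2 M) (h2 : 2 ∣ Nat.card G) {k : ℕ}
    (hk : k.Coprime (Nat.card G))
    (hkk : ∀ g : G, (g ^ k) ^ k = g) (hk₂ : ∀ g : G, ¬ 2 ∣ orderOf g → g ^ k = g)
    (h4 : Nat.card {χ : IrrCharacter G // χ ∈ principalBlock M G ∧
      ¬ 2 ∣ charDegree (χ : G → ℂ)} = 4) {χ : IrrCharacter G} (h1 : χ ∈ principalBlock M G)
    (ho : ¬ 2 ∣ charDegree (χ : G → ℂ)) (hne : gal hk χ ≠ χ) : HasNormalPComplement 2 G := by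
  classical
  have c3 : ∀ χ, gal hk (gal hk χ) = χ := fun χ => Subtype.ext (funext fun g => by
    rw [gal_apply, gal_apply, hkk])
  have c1 : gal hk (oneIrr G) = oneIrr G := Subtype.ext (funext fun g => rfl)
  have he : ∀ g : G, g ^ k ^ 2 ^ 1 = g := fun g => by rw [pow_one, pow_two, pow_mul, hkk]
  set S : Finset (IrrCharacter G) := Finset.univ.filter fun χ => χ ∈ principalBlock M G ∧
      ¬ 2 ∣ charDegree (χ : G → ℂ) with hS
  have mS : ∀ θ, θ ∈ S ↔ θ ∈ principalBlock M G ∧ ¬ 2 ∣ charDegree (θ : G → ℂ) := fun θ => by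
    simp only [hS, Finset.mem_filter, Finset.mem_univ, true_and]
  have gS : ∀ θ ∈ S, gal hk θ ∈ S := fun θ h => (mS _).2
    ⟨gal_mem_pb hM hk ((mS _).1 h).1, by rw [charDegree_gal]; exact ((mS _).1 h).2⟩
  have hc : S.card = 4 := by rw [← h4, Nat.card_eq_fintype_card, Fintype.card_subtype]
  have oS : oneIrr G ∈ S := (mS _).2 ⟨oneIrr_mem_principalBlock hM, by
    rw [charDegree_oneIrr]; decide⟩
  have xS : χ ∈ S := (mS _).2 ⟨h1, ho⟩
  have n1 : oneIrr G ≠ χ := fun e => hne (by rw [← e, c1])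
  have n2 : oneIrr G ≠ gal hk χ := fun e => n1 (by rw [← c3 χ, ← e, c1])
  have hT : ({oneIrr G, χ, gal hk χ} : Finset (IrrCharacter G)) ⊆ S := by
    intro θ hθ
    simp only [Finset.mem_insert, Finset.mem_singleton] at hθ
    rcases hθ with rfl | rfl | rfl
    exacts [oS, xS, gS _ xS]
  have h3 : ({oneIrr G, χ, gal hk χ} : Finset (IrrCharacter G)).card = 3 :=
    Finset.card_eq_three.2 ⟨_, _, _, n1, n2, hne.symm, rfl⟩
  obtain ⟨ψ, hψ⟩ := Finset.card_eq_one.1
    (show (S \ {oneIrr G, χ, gal hk χ}).card = 1 by rw [Finset.card_sdiff_of_subset hT, hc, h3])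
  have m : ∀ θ, θ = ψ ↔ θ ∈ S ∧ θ ≠ oneIrr G ∧ θ ≠ χ ∧ θ ≠ gal hk χ := fun θ => by
    rw [← Finset.mem_singleton, ← hψ]
    simp only [Finset.mem_sdiff, Finset.mem_insert, Finset.mem_singleton, not_or, ne_eq]
  obtain ⟨p1, p2, p3, p4⟩ := (m ψ).1 rfl
  have p5 : gal hk ψ = ψ := (m _).2 ⟨gS _ p1, fun e => p2 (by rw [← c3 ψ, e, c1]),
    fun e => p4 (by rw [← e, c3]), fun e => p3 (by rw [← c3 ψ, e, c3])⟩
  have key : ∀ θ, θ = oneIrr G ∨ θ = ψ ↔
      θ ∈ principalBlock M G ∧ ¬ 2 ∣ charDegree (θ : G → ℂ) ∧ gal hk θ = θ := fun θ => by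
    rw [← and_assoc, ← mS]
    refine ⟨?_, fun ⟨a, b⟩ => or_iff_not_imp_left.2 fun c => (m θ).2 ⟨a, c, ?_, ?_⟩⟩
    · rintro (rfl | rfl)
      exacts [⟨oS, c1⟩, ⟨p1, p5⟩]
    · rintro rfl
      exact hne b
    · rintro rfl
      exact hne (by rw [c3] at b; exact b.symm)
  have hl := CF.Bz.linear_of_pair hM h2 hk he hk₂ ψ p2 key
  refine hasNPC_of_pb_fixed_linear hM hk he hk₂ fun θ a b c => ?_
  rcases (key θ).2 ⟨a, b, c⟩ with rfl | rfl
  · exact charDegree_oneIrr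
  · exact CF.BlockB.charDegree_of_eq (by rw [hl, Nat.cast_one])

/-- The hard direction. -/
theorem npc_of_four (hM : IsPModular 2 M) (P : Sylow 2 G) (hc : ¬ IsCyclic P)
    (hi : (commutator ↥P).index ≠ 4) (h8 : 8 ∣ Nat.card G)
    (hout : 8 ∣ Nat.card {χ : IrrCharacter G // χ ∉ principalBlock M G ∧
      ¬ 2 ∣ charDegree (χ : G → ℂ)})
    (h4 : Nat.card {χ : IrrCharacter G // χ ∈ principalBlock M G ∧
      ¬ 2 ∣ charDegree (χ : G → ℂ)} = 4) : HasNormalPComplement 2 G := by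
  classical
  obtain ⟨s, k, a, hI, hs, hχ, hkk, ha⟩ := CF.Fo.A_sigma (G := G) (by omega)
  have hk := coprime_of_invol hkk
  have hk₂ := pow_eq_of_odd ha
  by_contra hn
  have h1 := even_moved hM hk hkk hk₂ fun χ a b => by
    by_contra c
    exact hn (npc_of_moved hM (by omega) hk hkk hk₂ h4 a b c)
  have h5 : Nat.card {χ : IrrCharacter G // ¬ 2 ∣ charDegree (χ : G → ℂ)} =
      Nat.card {χ : IrrCharacter G // χ ∈ principalBlock M G ∧ ¬ 2 ∣ charDegree (χ : G → ℂ)} +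
      Nat.card {χ : IrrCharacter G // χ ∉ principalBlock M G ∧ ¬ 2 ∣ charDegree (χ : G → ℂ)} := by
    simp only [Nat.card_eq_fintype_card, Fintype.card_subtype]
    rw [← Finset.card_filter_add_card_filter_not (fun χ => χ ∈ principalBlock M G),
      Finset.filter_filter, Finset.filter_filter]
    simp only [and_comm]
  refine odd_moved s hI hs (fun χ g => ?_) (by omega) h8 (four_dvd_sq P (by omega) hc hi) ?_
  · rw [hχ _ (irr_isCharacter χ.2), hχ _ (irr_isCharacter χ.2), hkk]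
  · rwa [Nat.card_congr (Equiv.subtypeEquivRight fun χ : IrrCharacter G => and_congr_right'
      (not_congr (show (fun g => s ((χ : G → ℂ) g)) = χ ↔ gal hk χ = χ by
        rw [gal_eq_iff, funext_iff]
        simp only [hχ _ (irr_isCharacter χ.2)])))]

end CF.K4
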