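import Cfsg.Agent.BlockB.Misc1
import Cfsg.Agent.BlockB.Gal
import Cfsg.Agent.BlockB.Height

/-! The number of odd-degree characters in `2`-blocks. -/

set_option autoImplicit false
open Cfsg CF.Char CF.BlockB

namespace CF.K4

variable {G : Type*} [Group G] [Finite G] {M : Ideal AlgInt}

theorem four_dvd_of_nrm (hM : IsPModular 2 M) (h4 : 4 ∣ Nat.card G) {B : Set (IrrCharacter G)}
    (hB : nrm M (eSet B) ≤ 1) :
    4 ∣ Nat.card {χ : IrrCharacter G // χ ∈ B ∧ ¬ 2 ∣ charDegree (χ : G → ℂ)} := by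
  classical
  have h1 : 2 ^ 2 ∣ ∑ χ ∈ Finset.univ.filter (· ∈ B), charDegree (χ : G → ℂ) ^ 2 := by
    rw [← v_natCast_le_pow_iff hM]
    have e : ((∑ χ ∈ Finset.univ.filter (· ∈ B), charDegree (χ : G → ℂ) ^ 2 : ℕ) : ℂ) =
        regB B 1 := by
      rw [regB_apply]; push_cast
      exact Finset.sum_congr rfl fun χ _ => by rw [irr_charDegree_eq, sq]
    rw [e, regB, map_mul]
    exact (mul_le_of_le_one_right' (nrm_le_iff.1 hB _)).trans
      ((v_natCast_le_pow_iff hM _ _).2 h4)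
  rw [Nat.card_eq_fintype_card, Fintype.card_subtype, ← Finset.filter_filter, Finset.card_filter,
    Nat.dvd_iff_mod_eq_zero, Finset.sum_nat_mod]
  rw [show 2 ^ 2 = 4 from rfl, Nat.dvd_iff_mod_eq_zero, Finset.sum_nat_mod] at h1
  refine (congrArg (· % 4) (Finset.sum_congr rfl fun χ _ => ?_)).trans h1
  generalize charDegree (χ : G → ℂ) = d
  rcases Nat.even_or_odd' d with ⟨c, rfl | rfl⟩
  · rw [if_neg (by simp), show (2 * c) ^ 2 = 4 * c ^ 2 by ring]; simp
  · rw [if_pos (by omega), show (2 * c + 1) ^ 2 = 1 + 4 * (c ^ 2 + c) by ring]; simp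

theorem four_dvd_k0 (hM : IsPModular 2 M) (h4 : 4 ∣ Nat.card G) {B : Set (IrrCharacter G)}
    (hB : IsPBlock M B) :
    4 ∣ Nat.card {χ : IrrCharacter G // χ ∈ B ∧ ¬ 2 ∣ charDegree (χ : G → ℂ)} :=
  four_dvd_of_nrm hM h4 (nrm_eSet_le_one hM hB)

theorem exists_bar (G : Type*) [Group G] [Finite G] : ∃ c : IrrCharacter G → IrrCharacter G,
    ∀ χ g, (c χ : G → ℂ) g = (χ : G → ℂ) g⁻¹ := by
  have h0 : 0 < Nat.card G := Nat.card_pos
  have hk : (Nat.card G - 1).Coprime (Nat.card G) :=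
    (Nat.coprime_self_sub_left h0).2 (Nat.coprime_one_left _)
  refine ⟨gal hk, fun χ g => ?_⟩
  rw [gal_apply, eq_inv_of_mul_eq_one_left (a := g ^ (Nat.card G - 1)) (b := g)
    (by rw [← pow_succ, Nat.sub_add_cancel h0, pow_card_eq_one'])]

theorem eight_dvd_out (hM : IsPModular 2 M) (h4 : 4 ∣ Nat.card G) :
    8 ∣ Nat.card {χ : IrrCharacter G // χ ∉ principalBlock M G ∧
      ¬ 2 ∣ charDegree (χ : G → ℂ)} := by
  classical
  obtain ⟨c, hc⟩ := exists_bar G
  have hcc : ∀ χ, c (c χ) = χ := fun χ => Subtype.ext (funext fun g => by rw [hc, hc, inv_inv])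
  have hz : ∀ χ g, centralChar (c χ : G → ℂ) g = centralChar (χ : G → ℂ) g⁻¹ := fun χ g => by
    rw [centralChar, centralChar, hc, hc, inv_one, centralizer_inv]
  have hd : ∀ χ, charDegree (c χ : G → ℂ) = charDegree (χ : G → ℂ) := fun χ => by
    rw [charDegree, charDegree, hc, inv_one]
  have hb : ∀ χ ψ : IrrCharacter G, ψ ∈ blockOf M (χ : G → ℂ) → c ψ ∈ blockOf M (c χ : G → ℂ) :=
    fun χ ψ h g => by rw [hz, hz]; exact h g⁻¹
  have hpb : ∀ χ ∈ principalBlock M G, c χ ∈ principalBlock M G := fun χ h g => by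
    have := h g⁻¹
    rw [hz]
    rwa [centralChar, centralizer_inv] at this
  have := Fintype.ofFinite (Set (IrrCharacter G))
  set f : IrrCharacter G → ℕ := fun χ => Fintype.equivFin _ (blockOf M (χ : G → ℂ)) with hf
  have hfe : ∀ χ ψ : IrrCharacter G, f χ = f ψ ↔ blockOf M (χ : G → ℂ) = blockOf M (ψ : G → ℂ) :=
    fun χ ψ => by rw [hf, Fin.val_inj, Equiv.apply_eq_iff_eq]
  have h1 := four_dvd_of_nrm hM h4 (B := {χ | f χ < f (c χ)})
    (nrm_eSet_le_one_of_union hM fun χ hχ ψ hψ => by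
      rw [Set.mem_setOf_eq, (hfe _ _).2 (blockOf_eq_of_mem hM hψ),
        (hfe _ _).2 (blockOf_eq_of_mem hM (hb _ _ hψ))]
      exact hχ)
  have h2 : ∀ χ : IrrCharacter G, ¬ 2 ∣ charDegree (χ : G → ℂ) →
      (χ ∉ principalBlock M G ↔ f χ < f (c χ) ∨ f (c χ) < f χ) := fun χ hχ => by
    rw [← ne_iff_lt_or_gt, not_iff_not, hfe]
    refine ⟨fun h => ?_, fun h => mem_pb_of_inv_stable hM hχ fun g _ => ?_⟩
    · rw [← block_eq_blockOf hM isPBlock_principalBlock h,
        ← block_eq_blockOf hM isPBlock_principalBlock (hpb _ h)]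
    · rw [← hz]
      exact (sameBlock_iff hM χ.2 (c χ).2).1 (h ▸ mem_blockOf_self hM (c χ) :
        c χ ∈ blockOf M (χ : G → ℂ)) g
  rw [Nat.card_eq_fintype_card, Fintype.card_subtype] at h1 ⊢
  set s := Finset.univ.filter fun χ : IrrCharacter G =>
    χ ∈ {χ | f χ < f (c χ)} ∧ ¬ 2 ∣ charDegree (χ : G → ℂ) with hs
  have hci : Function.Injective c := Function.LeftInverse.injective hcc
  have h3 : Finset.univ.filter (fun χ : IrrCharacter G => χ ∉ principalBlock M G ∧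
      ¬ 2 ∣ charDegree (χ : G → ℂ)) = s ∪ s.image c := by
    ext χ
    simp only [hs, Finset.mem_union, Finset.mem_image, Finset.mem_filter, Finset.mem_univ,
      true_and, Set.mem_setOf_eq]
    constructor
    · rintro ⟨h, h'⟩
      rcases (h2 χ h').1 h with h5 | h5
      · exact Or.inl ⟨h5, h'⟩
      · exact Or.inr ⟨c χ, ⟨by rwa [hcc], by rwa [hd]⟩, hcc χ⟩
    · rintro (⟨h, h'⟩ | ⟨ψ, ⟨h, h'⟩, rfl⟩)
      · exact ⟨(h2 χ h').2 (Or.inl h), h'⟩
      · rw [← hd] at h'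
        exact ⟨(h2 _ h').2 (Or.inr (by rwa [hcc])), h'⟩
  rw [h3, Finset.card_union_of_disjoint, Finset.card_image_of_injective _ hci]
  · omega
  · rw [Finset.disjoint_left]
    intro χ h h'
    obtain ⟨ψ, hψ, rfl⟩ := Finset.mem_image.1 h'
    simp only [hs, Finset.mem_filter, Finset.mem_univ, true_and, Set.mem_setOf_eq, hcc] at h hψ
    omega

end CF.K4
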