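import Cfsg.Agent.Bz.A
import Cfsg.Agent.Transfer.Residual

set_option autoImplicit false
open Cfsg

namespace CF.K4

variable {G : Type*} [Group G] [Finite G] {M : Ideal AlgInt}

theorem N_pgrp {p : ℕ} [hp : Fact p.Prime] {Q : Type*} [Group Q] [Finite Q] (hQ : IsPGroup p Q)
    (ψ : IrrCharacter Q) : ¬ p ∣ charDegree (ψ : Q → ℂ) ↔ (ψ : Q → ℂ) 1 = 1 := by
  obtain ⟨j, hj⟩ := hQ.exists_card_eq
  have h1 := CF.BlockB.charDegree_dvd_card ψ
  rw [hj] at h1
  obtain ⟨i, -, hi⟩ := (Nat.dvd_prime_pow hp.out).1 h1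
  rw [← CF.BlockB.irr_charDegree_eq, hi]
  rcases i with _ | i
  · simp [hp.out.ne_one]
  · refine ⟨fun h => (h (dvd_pow_self p i.succ_ne_zero)).elim, fun h => ?_⟩
    have h2 : p ^ (i + 1) = 1 := by exact_mod_cast h
    rw [h2, Nat.dvd_one]
    exact hp.out.ne_one

theorem k0_npc {p : ℕ} [Fact p.Prime] (hM : IsPModular p M) (P : Sylow p G)
    (h : HasNormalPComplement p G) :
    Nat.card {χ : IrrCharacter G // χ ∈ principalBlock M G ∧ ¬ p ∣ charDegree (χ : G → ℂ)} =
      (commutator ↥P).index := by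
  have hN := CF.Transfer.hasNPC_iff_not_dvd.1 h
  obtain ⟨j, hj⟩ := CF.Transfer.index_pResidual (p := p) (G := G)
  have e1 := (CF.Transfer.HasNPC.isComplement' h P).symm.QuotientMulEquiv
  let f : G →* P := e1.toMonoidHom.comp (QuotientGroup.mk' _)
  have hf : Function.Surjective f := e1.surjective.comp (QuotientGroup.mk'_surjective _)
  have hk : f.ker = pResidual p G := by
    ext x
    simp [f]
  rw [← CF.Char.card_irr_one_eq_one]
  symm
  refine Nat.card_congr (((CF.Char.irrEquivOfSurjective f hf).subtypeEquiv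
    (q := fun χ => ¬ p ∣ charDegree (χ.1 : G → ℂ)) fun ψ => ?_).trans
    ((Equiv.subtypeSubtypeEquivSubtypeInter _
      (fun χ : IrrCharacter G => ¬ p ∣ charDegree (χ : G → ℂ))).trans
      (Equiv.subtypeEquivRight fun χ => ?_)))
  · rw [← N_pgrp P.isPGroup' ψ, charDegree, charDegree, CF.Char.irrEquivOfSurjective_apply, map_one]
  · rw [hk, CF.Char.mem_pb_iff_of_npc hM _ hN hj]

theorem npc_of_cyclic (P : Sylow 2 G) (h : IsCyclic P) : HasNormalPComplement 2 G := by
  have := Fact.mk Nat.prime_two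
  by_cases h2 : 2 ∣ Nat.card G
  · exact ⟨P, _, inferInstance, IsCyclic.isComplement' ((Nat.minFac_eq_two_iff _).2 h2) h⟩
  · exact CF.Transfer.hasNPC_of_coprime ((Nat.Prime.coprime_iff_not_dvd Nat.prime_two).2 h2).symm

end CF.K4
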